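import Cfsg.Agent.H669.TwoDegSol
import Cfsg.Agent.H669.Basic

/-!
# Solvable groups with two character degrees prime to `p`: the structure (helper669, for S4833)
-/

set_option autoImplicit false

namespace Cfsg.Agent.H669.TwoDeg

open Cfsg Cfsg.Agent.Characters.Core Cfsg.Agent.H713 Cfsg.Agent.H672 Cfsg.Agent.H669.TensExt

universe u

/-- A `p`-chief factor below a `q`-chief factor, and a character of degree prime to `p`, not linear, above both. -/
theorem key {G : Type u} [Group G] [Finite G] {p : ℕ} [hp : Fact p.Prime] (hcd : (cdp p G).ncard ≤ 2)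
    (M Y : Subgroup G) [hM : M.Normal] [hY : Y.Normal] (hMp : IsPGroup p M) (hM1 : M ≠ ⊥)
    (hmin : ∀ K : Subgroup G, K.Normal → K ≤ M → K = ⊥ ∨ K = M) (hcomm : ∀ a ∈ M, ∀ b ∈ M, a * b = b * a)
    (hMY : M ≤ Y) (hne : M ≠ Y) {q : ℕ} [hq : Fact q.Prime] (hqp : q ≠ p)
    (hYq : IsPGroup q (Y.map (QuotientGroup.mk' M)))
    (hcore : ∀ R : Subgroup G, R.Normal → Nat.Coprime (Nat.card R) p → R = ⊥)
    (X : G ⧸ Y → ℂ) (hX : IsIrrCharacter (G ⧸ Y) X) (hpX : ¬ p ∣ charDegree X) (hX1 : charDegree X ≠ 1) :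
    False := by
  classical
  obtain ⟨Q⟩ : Nonempty (Sylow q Y) := inferInstance
  obtain ⟨hYQ, hfr⟩ := H475.GammaSol.frattini M Y hMY hYq Q
  obtain ⟨Q', hQ'⟩ : ∃ Q' : Subgroup G, Q' = (Q : Subgroup Y).map Y.subtype := ⟨_, rfl⟩
  rw [← hQ'] at hYQ hfr
  obtain ⟨L0, hL0⟩ : ∃ L0 : Subgroup G, L0 = Subgroup.normalizer (Q' : Set G) := ⟨_, rfl⟩
  rw [← hL0] at hfr
  have hdec : ∀ g : G, ∃ m ∈ M, ∃ l ∈ L0, g = m * l := by
    intro g
    have h1 : g ∈ M ⊔ L0 := by rw [sup_comm, hfr]; trivial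
    rw [← SetLike.mem_coe, Subgroup.normal_mul] at h1
    obtain ⟨m, hm, l, hl, h⟩ := h1
    exact ⟨m, hm, l, hl, h.symm⟩
  have hnorm : (M ⊓ L0).Normal := by
    refine ⟨fun x hx g => ?_⟩
    obtain ⟨m, hm, l, hl, rfl⟩ := hdec g
    have hx1 := (Subgroup.mem_inf.1 hx)
    have h2 : l * x * l⁻¹ ∈ M ⊓ L0 := Subgroup.mem_inf.2
      ⟨hM.conj_mem _ hx1.1 _, L0.mul_mem (L0.mul_mem hl hx1.2) (L0.inv_mem hl)⟩
    have h3 : m * l * x * (m * l)⁻¹ = l * x * l⁻¹ := by
      have h4 := hcomm m hm (l * x * l⁻¹) (Subgroup.mem_inf.1 h2).1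
      calc m * l * x * (m * l)⁻¹ = m * (l * x * l⁻¹) * m⁻¹ := by group
        _ = l * x * l⁻¹ := by rw [h4]; group
    rw [h3]
    exact h2
  have hQ'card : Nat.Coprime (Nat.card Q') p := by
    rw [hQ', Subgroup.card_map_of_injective Y.subtype_injective]
    obtain ⟨k, hk⟩ := Q.isPGroup'.exists_card_eq
    rw [hk]
    exact Nat.Coprime.pow_left _ ((Nat.coprime_primes hq.out hp.out).2 hqp)
  have hML0 : ¬ M ≤ L0 := by
    intro h
    have h1 : L0 = ⊤ := by
      rw [← hfr]
      exact (sup_eq_left.2 h).symm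
    have h2 : Q'.Normal := by
      rw [← Subgroup.normalizer_eq_top_iff, ← hL0, h1]
    have h3 := hcore Q' h2 hQ'card
    rw [h3, sup_bot_eq] at hYQ
    exact hne hYQ.symm
  have hinf : M ⊓ L0 = ⊥ := by
    rcases hmin (M ⊓ L0) hnorm inf_le_left with h | h
    · exact h
    · exact absurd (inf_eq_left.1 h) hML0
  obtain ⟨P⟩ : Nonempty (Sylow p G) := inferInstance
  obtain ⟨lam, hlam1, hlamP⟩ := exists_fixed_linear M hMp hM1 (P : Subgroup G) P.isPGroup'
  -- the kernel of `lam` contains no nontrivial normal subgroup of `G`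
  have hker : ∀ K : Subgroup G, K.Normal → K ≤ M → (∀ n : M, (n : G) ∈ K → lam n = 1) → K = ⊥ := by
    intro K hK hKM h
    rcases hmin K hK hKM with h1 | h1
    · exact h1
    · exfalso
      apply hlam1
      ext n
      rw [h n (by rw [h1]; exact n.2)]
      rfl
  obtain ⟨T, hTdef⟩ : ∃ T : Subgroup G, T = inertia M (fun n => (lam n : ℂ)) := ⟨_, rfl⟩
  have hT : ∀ g : G, g ∈ T ↔ ∀ n : M, lam ⟨g * n * g⁻¹, hM.conj_mem (n : G) n.2 g⟩ = lam n := by
    intro g
    rw [hTdef, mem_inertia_iff]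
    exact ⟨fun h n => Units.ext (h n), fun h n => congrArg _ (h n)⟩
  have hMT : M ≤ T := by
    intro m hm
    rw [hT]
    intro n
    congr 1
    apply Subtype.ext
    change m * n * m⁻¹ = n
    rw [hcomm m hm n n.2]
    group
  have hPT : (P : Subgroup G) ≤ T := by
    intro x hx
    rw [hT]
    exact hlamP x hx
  have hpT : ¬ p ∣ T.index := fun h => P.not_dvd_index (h.trans (Subgroup.index_dvd_of_le hPT))
  -- extension of `lam` to `T`
  obtain ⟨F, hF⟩ : ∃ F : T →* ℂˣ, ∀ n : M, F ⟨n, hMT n.2⟩ = lam n := by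
    let e : M.subgroupOf T ≃* M := Subgroup.subgroupOfEquivOfLe hMT
    obtain ⟨F, hF⟩ := exists_hom_ext (M.subgroupOf T) (L0.subgroupOf T) (by
        rw [eq_bot_iff]
        intro x hx
        obtain ⟨hx1, hx2⟩ := Subgroup.mem_inf.1 hx
        have h1 : (x : G) ∈ M ⊓ L0 := Subgroup.mem_inf.2
          ⟨Subgroup.mem_subgroupOf.1 hx1, Subgroup.mem_subgroupOf.1 hx2⟩
        rw [hinf, Subgroup.mem_bot] at h1
        rw [Subgroup.mem_bot]
        exact Subtype.ext h1) (by
        intro t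
        obtain ⟨m, hm, l, hl, h⟩ := hdec t
        have hlT : l ∈ T := by
          have h1 : l = m⁻¹ * t := by rw [h]; group
          rw [h1]
          exact T.mul_mem (T.inv_mem (hMT hm)) t.2
        exact ⟨⟨m, hMT hm⟩, Subgroup.mem_subgroupOf.2 hm, ⟨l, hlT⟩, Subgroup.mem_subgroupOf.2 hl, Subtype.ext h⟩)
      (lam.comp e.toMonoidHom) (by
        intro t n
        exact (hT t).1 t.2 (e n))
    refine ⟨F, fun n => ?_⟩
    have h1 := hF ⟨⟨n, hMT n.2⟩, Subgroup.mem_subgroupOf.2 n.2⟩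
    exact h1
  have hdeg : ∀ ψ : T → ℂ, IsIrrCharacter T ψ → (∀ n : M, ψ ⟨n, hMT n.2⟩ = ψ 1) →
      ∃ X : G → ℂ, IsIrrCharacter G X ∧ charDegree X = T.index * charDegree ψ := by
    intro ψ hψ hψM
    have h1 := H669.Basic.isIrr_hom_mul F hψ
    obtain ⟨X, hX, h2⟩ := exists_clifford_up M lam T hT hMT h1 (fun n => by
      rw [hψM n, hF n, map_one, Units.val_one, one_mul, mul_comm])
    refine ⟨X, hX, ?_⟩
    rw [h2]
    congr 1
    apply charDegree_of_eq
    rw [map_one, Units.val_one, one_mul, coe_charDegree hψ]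
  have hTcd : T.index ∈ cdp p G := by
    obtain ⟨X, hX, h⟩ := hdeg 1 isIrr_one (fun n => rfl)
    refine mem_cdp hX ?_ hpT
    rw [h, charDegree_of_eq (n := 1) (by simp), mul_one]
  have hT1 : T.index ≠ 1 := by
    intro h
    rw [Subgroup.index_eq_one] at h
    have hn : (lam.ker.map M.subtype).Normal := by
      refine ⟨fun x hx g => ?_⟩
      obtain ⟨n, hn, rfl⟩ := hx
      have hg : g ∈ T := by rw [h]; trivial
      refine ⟨⟨g * n * g⁻¹, hM.conj_mem (n : G) n.2 g⟩, ?_, rfl⟩
      change lam _ = 1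
      rw [(hT g).1 hg n]
      exact hn
    have h1 := hker _ hn (Subgroup.map_subtype_le _) (by
      intro n hn
      obtain ⟨n', hn', h⟩ := hn
      rw [← Subtype.ext h]
      exact hn')
    rw [Subgroup.map_eq_bot_iff_of_injective _ M.subtype_injective] at h1
    apply hML0
    intro m hm
    rw [hL0, Subgroup.mem_normalizer_iff]
    intro x
    have h2 : m * x * m⁻¹ = x := by
      have hx : x ∈ T := by rw [h]; trivial
      have h3 := (hT x).1 hx ⟨m, hm⟩
      have h4 := (MonoidHom.ker_eq_bot_iff lam).1 h1 h3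
      have h5 : x * m * x⁻¹ = m := congrArg Subtype.val h4
      have h6 : x * m = m * x := mul_inv_eq_iff_eq_mul.1 h5
      rw [← h6]
      group
    rw [h2]
  have hXinf : charDegree X ∈ cdp p G :=
    cdp_comp (QuotientGroup.mk' Y) (QuotientGroup.mk'_surjective Y) (mem_cdp hX rfl hpX)
  have hthree : ∀ a ∈ cdp p G, ∀ b ∈ cdp p G, a ≠ 1 → b ≠ 1 → a = b := by
    intro a ha b hb ha1 hb1
    by_contra hab
    have h4 : ({1, a, b} : Finset ℕ).card = 3 := by
      rw [Finset.card_eq_three]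
      exact ⟨_, _, _, ha1.symm, hb1.symm, hab, rfl⟩
    have h5 : ((({1, a, b} : Finset ℕ) : Set ℕ)).ncard ≤ (cdp p G).ncard := by
      apply Set.ncard_le_ncard _ (cdp_finite p G)
      intro x hx
      simp only [Finset.coe_insert, Finset.coe_singleton, Set.mem_insert_iff, Set.mem_singleton_iff] at hx
      rcases hx with rfl | rfl | rfl
      · exact one_mem_cdp
      · exact ha
      · exact hb
    rw [Set.ncard_coe_finset, h4] at h5
    omega
  have hXT : charDegree X = T.index := hthree _ hXinf _ hTcd hX1 hT1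
  have hlin : ∀ ψ : T → ℂ, IsIrrCharacter T ψ → (∀ n : M, ψ ⟨n, hMT n.2⟩ = ψ 1) → ¬ p ∣ charDegree ψ →
      charDegree ψ = 1 := by
    intro ψ hψ hψM hpψ
    obtain ⟨Z, hZ, h⟩ := hdeg ψ hψ hψM
    have h1 : T.index * charDegree ψ ∈ cdp p G := by
      refine mem_cdp hZ h ?_
      intro h2
      rcases hp.out.dvd_mul.1 h2 with h2 | h2
      · exact hpT h2
      · exact hpψ h2
    have h2 : T.index * charDegree ψ = T.index :=
      hthree _ h1 _ hTcd (fun h => hT1 (Nat.eq_one_of_mul_eq_one_right h)) hT1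
    have h3 : 0 < T.index := Nat.pos_of_ne_zero Subgroup.index_ne_zero_of_finite
    exact Nat.eq_of_mul_eq_mul_left h3 (by rw [h2, mul_one])
  -- the image of `T` in `G / Y`
  have hYT : Y ≤ T := by
    obtain ⟨μ, hμ, hover, hpμ⟩ := exists_under_not_dvd (T.map (QuotientGroup.mk' Y)).subtype hX hpX
    have h1 := isIrr_comp ((QuotientGroup.mk' Y).subgroupMap T) ((QuotientGroup.mk' Y).subgroupMap_surjective T) hμ
    have h2 : charDegree μ = 1 := by
      have h3 : charDegree (μ ∘ ((QuotientGroup.mk' Y).subgroupMap T)) = charDegree μ := by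
        apply charDegree_of_eq
        rw [Function.comp_apply, map_one, coe_charDegree hμ]
      rw [← h3]
      apply hlin _ h1
      · intro n
        rw [Function.comp_apply, Function.comp_apply, map_one]
        congr 1
        apply Subtype.ext
        change ((n : G) : G ⧸ Y) = 1
        exact (QuotientGroup.eq_one_iff _).2 (hMY n.2)
      · rw [h3]
        exact hpμ
    have h3 := charDegree_le_index_mul (T.map (QuotientGroup.mk' Y)) hX hμ hover
    rw [h2, mul_one, hXT] at h3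
    have h4 : (T.map (QuotientGroup.mk' Y)).index = (T ⊔ Y).index := by
      rw [Subgroup.index_map, QuotientGroup.ker_mk', (QuotientGroup.mk' Y).range_eq_top.2
        (QuotientGroup.mk'_surjective Y), Subgroup.index_top, mul_one]
    rw [h4] at h3
    have h5 : T.relIndex (T ⊔ Y) * (T ⊔ Y).index = T.index := Subgroup.relIndex_mul_index le_sup_left
    have h6 : 0 < (T ⊔ Y).index := Nat.pos_of_ne_zero Subgroup.index_ne_zero_of_finite
    have h7 : T.relIndex (T ⊔ Y) = 1 := by
      have h8 : T.relIndex (T ⊔ Y) ≤ 1 := by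
        by_contra h9
        have h10 : 2 * (T ⊔ Y).index ≤ T.relIndex (T ⊔ Y) * (T ⊔ Y).index := Nat.mul_le_mul_right _ (by omega)
        omega
      have h9 : T.relIndex (T ⊔ Y) ≠ 0 := by
        intro h
        rw [h, zero_mul] at h5
        exact Subgroup.index_ne_zero_of_finite h5.symm
      omega
    rw [Subgroup.relIndex_eq_one] at h7
    exact le_sup_right.trans h7
  -- `[M, Y] = 1`
  have hcom : ∀ m ∈ M, ∀ y ∈ Y, y * m * y⁻¹ = m := by
    open scoped commutatorElement in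
    have h1 : (⁅Y, M⁆ : Subgroup G) = ⊥ := by
      refine hker _ inferInstance (Subgroup.commutator_le_right Y M) ?_
      have h2 : (⁅Y, M⁆ : Subgroup G) ≤ lam.ker.map M.subtype := by
        rw [Subgroup.commutator_le]
        intro y hy m hm
        refine ⟨⟨y * m * y⁻¹, hM.conj_mem _ hm _⟩ * ⟨m, hm⟩⁻¹, ?_, ?_⟩
        · change lam _ = 1
          rw [map_mul, map_inv, (hT y).1 (hYT hy) ⟨m, hm⟩, mul_inv_cancel]
        · rw [commutatorElement_def]
          rfl
      intro n hn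
      obtain ⟨n', hn', h⟩ := h2 hn
      rw [← Subtype.ext h]
      exact hn'
    intro m hm y hy
    open scoped commutatorElement in
    have h2 : ⁅y, m⁆ ∈ (⁅Y, M⁆ : Subgroup G) := Subgroup.commutator_mem_commutator hy hm
    rw [h1, Subgroup.mem_bot, commutatorElement_def] at h2
    exact mul_inv_eq_one.1 h2
  apply hML0
  intro m hm
  rw [hL0, Subgroup.mem_normalizer_iff]
  have hQY : Q' ≤ Y := by rw [hQ']; exact Subgroup.map_subtype_le _
  have hfix : ∀ x ∈ Q', m * x * m⁻¹ = x := by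
    intro x hx
    have h5 := hcom m hm x (hQY hx)
    have h6 : x * m = m * x := mul_inv_eq_iff_eq_mul.1 h5
    rw [← h6]
    group
  intro x
  constructor
  · intro hx
    rw [hfix x hx]
    exact hx
  · intro hx
    have h1 := hfix _ hx
    have h2 : m * x * m⁻¹ = x := by
      have h3 : m * (m * x * m⁻¹) * m⁻¹ = m * x * m⁻¹ := h1
      have h4 : m * x * m⁻¹ = m⁻¹ * (m * (m * x * m⁻¹) * m⁻¹) * m := by group
      rw [h4, h3]
      group
    rw [← h2]
    exact hx

end Cfsg.Agent.H669.TwoDeg
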