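import Cfsg.Agent.H669.TwoDegKey

/-!
# S4833 from the conclusion of S4834 (helper669)
-/

set_option autoImplicit false

namespace Cfsg.Agent.H669.TwoDeg

open Cfsg Cfsg.Agent.Characters.Core Cfsg.Agent.H713 Cfsg.Agent.H672 Cfsg.Agent.H669.TensExt

universe u

/-- The series of S4833. -/
def Ser (p : ℕ) (G : Type u) [Group G] : Prop :=
  ∃ K L N : Subgroup G, K.Normal ∧ L.Normal ∧ N.Normal ∧ N ≤ L ∧ L ≤ K ∧ (∃ a : ℕ, K.index = p ^ a) ∧
    Nat.Coprime (L.relIndex K) p ∧ (∃ b : ℕ, N.relIndex L = p ^ b) ∧ Nat.Coprime (Nat.card N) p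

theorem relIndex_comap_mk {G : Type u} [Group G] (R : Subgroup G) [R.Normal] (A B : Subgroup (G ⧸ R)) :
    (A.comap (QuotientGroup.mk' R)).relIndex (B.comap (QuotientGroup.mk' R)) = A.relIndex B := by
  rw [Subgroup.relIndex_comap, Subgroup.map_comap_eq_self_of_surjective (QuotientGroup.mk'_surjective R)]

theorem index_comap_mk {G : Type u} [Group G] (R : Subgroup G) [R.Normal] (A : Subgroup (G ⧸ R)) :
    (A.comap (QuotientGroup.mk' R)).index = A.index :=
  Subgroup.index_comap_of_surjective _ (QuotientGroup.mk'_surjective R)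

theorem card_comap_mk {G : Type u} [Group G] [Finite G] (R : Subgroup G) [R.Normal] (A : Subgroup (G ⧸ R)) :
    Nat.card (A.comap (QuotientGroup.mk' R)) = Nat.card R * Nat.card A := by
  have h1 := (A.comap (QuotientGroup.mk' R)).card_mul_index
  rw [index_comap_mk, R.card_eq_card_quotient_mul_card_subgroup, ← A.card_mul_index] at h1
  have h2 : 0 < A.index := Nat.pos_of_ne_zero Subgroup.index_ne_zero_of_finite
  apply Nat.eq_of_mul_eq_mul_right h2
  rw [h1]
  ring

theorem le_comap_mk {G : Type u} [Group G] (R : Subgroup G) [R.Normal] (A : Subgroup (G ⧸ R)) :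
    R ≤ A.comap (QuotientGroup.mk' R) := by
  intro x hx
  rw [Subgroup.mem_comap]
  have h1 : (QuotientGroup.mk' R) x = 1 := (QuotientGroup.eq_one_iff x).2 hx
  rw [h1]
  exact one_mem _

theorem relIndex_comap_card {G : Type u} [Group G] (R : Subgroup G) [R.Normal] (A : Subgroup (G ⧸ R)) :
    R.relIndex (A.comap (QuotientGroup.mk' R)) = Nat.card A := by
  have h3 := relIndex_comap_mk R (⊥ : Subgroup (G ⧸ R)) A
  rw [MonoidHom.comap_bot, QuotientGroup.ker_mk', Subgroup.relIndex_bot_left] at h3
  exact h3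

theorem ser_of_quot {p : ℕ} {G : Type u} [Group G] [Finite G] (R : Subgroup G) [R.Normal]
    (hR : Nat.Coprime (Nat.card R) p) (h : Ser p (G ⧸ R)) : Ser p G := by
  obtain ⟨K, L, N, hK, hL, hN, hNL, hLK, ⟨a, ha⟩, hc, ⟨b, hb⟩, hN'⟩ := h
  refine ⟨K.comap (QuotientGroup.mk' R), L.comap (QuotientGroup.mk' R), N.comap (QuotientGroup.mk' R),
    inferInstance, inferInstance, inferInstance, Subgroup.comap_mono hNL, Subgroup.comap_mono hLK, ⟨a, ?_⟩, ?_,
    ⟨b, ?_⟩, ?_⟩
  · rw [index_comap_mk, ha]
  · rw [relIndex_comap_mk]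
    exact hc
  · rw [relIndex_comap_mk, hb]
  · rw [card_comap_mk]
    exact Nat.Coprime.mul_left hR hN'

/-- The structure of a solvable group with at most two degrees prime to `p`. -/
theorem ser_of_ncard {p : ℕ} [hp : Fact p.Prime] : ∀ (n : ℕ) (G : Type u) [Group G] [Finite G],
    Nat.card G ≤ n → Group.IsSolvable G → (cdp p G).ncard ≤ 2 → Ser p G := by
  intro n
  induction n with
  | zero =>
    intro G _ _ hn
    have := Nat.card_pos (α := G)
    omega
  | succ n ih =>
    intro G _ _ hn hsol hG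
    by_cases htriv : Subsingleton G
    · refine ⟨⊤, ⊤, ⊤, inferInstance, inferInstance, inferInstance, le_rfl, le_rfl, ⟨0, ?_⟩, ?_, ⟨0, ?_⟩, ?_⟩
      · rw [Subgroup.index_top, pow_zero]
      · rw [Subgroup.relIndex_self]
        exact Nat.coprime_one_left p
      · rw [Subgroup.relIndex_self, pow_zero]
      · rw [Subgroup.card_top, Nat.card_unique]
        exact Nat.coprime_one_left p
    rw [not_subsingleton_iff_nontrivial] at htriv
    have hquot : ∀ (K : Subgroup G) [K.Normal], K ≠ ⊥ → Ser p (G ⧸ K) := by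
      intro K hK hK1
      refine ih (G ⧸ K) ?_ inferInstance
        ((Set.ncard_le_ncard (cdp_comp (QuotientGroup.mk' K) (QuotientGroup.mk'_surjective K))
        (cdp_finite p G)).trans hG)
      have h1 := Subgroup.card_eq_card_quotient_mul_card_subgroup K
      have h2 : 1 < Nat.card K := by
        rw [Subgroup.one_lt_card_iff_ne_bot]
        exact hK1
      have h3 := Nat.card_pos (α := G ⧸ K)
      have h4 : Nat.card (G ⧸ K) * 2 ≤ Nat.card (G ⧸ K) * Nat.card K := Nat.mul_le_mul_left _ h2
      omega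
    by_cases hcore : ∀ R : Subgroup G, R.Normal → Nat.Coprime (Nat.card R) p → R = ⊥
    swap
    · push Not at hcore
      obtain ⟨R, hR, hRp, hR1⟩ := hcore
      exact ser_of_quot R hRp (hquot R hR1)
    obtain ⟨M, hM, hM1, hmin⟩ := Lib.SubnormalJoin.exists_minimal_normal G
    obtain ⟨r, d, hr, hd, hcard, hexp⟩ :=
      SolvableStructure.MinimalNormal.exists_prime_of_minimal_normal M hM1 hmin
    have hcomm := SolvableStructure.MinimalNormal.comm_of_minimal_normal M hM1 hmin
    have hrp : r = p := by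
      by_contra h
      apply hM1
      apply hcore M hM
      rw [hcard]
      exact Nat.Coprime.pow_left _ ((Nat.coprime_primes hr hp.out).2 h)
    subst hrp
    have hMp : IsPGroup r M := IsPGroup.of_card hcard
    obtain ⟨K, L, N, hK, hL, hN, hNL, hLK, ⟨a, ha⟩, hc, ⟨b, hb⟩, hN'⟩ := hquot M hM1
    by_cases hN1 : N = ⊥
    · refine ⟨K.comap (QuotientGroup.mk' M), L.comap (QuotientGroup.mk' M), ⊥,
        inferInstance, inferInstance, inferInstance, bot_le, Subgroup.comap_mono hLK, ⟨a, ?_⟩, ?_,
        ⟨d + b, ?_⟩, ?_⟩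
      · rw [index_comap_mk, ha]
      · rw [relIndex_comap_mk]
        exact hc
      · rw [Subgroup.relIndex_bot_left, card_comap_mk, hcard, pow_add]
        rw [hN1, Subgroup.relIndex_bot_left] at hb
        rw [hb]
      · rw [Subgroup.card_bot]
        exact Nat.coprime_one_left _
    · obtain ⟨Y0, hY0, hY0N, hY01, hY0min⟩ := Lib.SubnormalJoin.exists_minimal_normal_le N hN hN1
      obtain ⟨q, e, hq, he, hcardq, -⟩ :=
        SolvableStructure.MinimalNormal.exists_prime_of_minimal_normal Y0 hY01 hY0min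
      have : Fact q.Prime := ⟨hq⟩
      have hqr : q ≠ r := by
        rintro rfl
        have h1 : q ∣ Nat.card N := by
          have h2 := Subgroup.card_dvd_of_le hY0N
          rw [hcardq] at h2
          exact (dvd_pow_self q he.ne').trans h2
        have h3 := Nat.Coprime.eq_one_of_dvd hN'.symm h1
        exact hq.one_lt.ne' h3
      obtain ⟨Y, hYdef⟩ : ∃ Y : Subgroup G, Y = Y0.comap (QuotientGroup.mk' M) := ⟨_, rfl⟩
      have hY : Y.Normal := by rw [hYdef]; infer_instance
      have hMY : M ≤ Y := by rw [hYdef]; exact le_comap_mk M Y0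
      have hYmap : Y.map (QuotientGroup.mk' M) = Y0 := by
        rw [hYdef]
        exact Subgroup.map_comap_eq_self_of_surjective (QuotientGroup.mk'_surjective M) Y0
      have hYq : IsPGroup q (Y.map (QuotientGroup.mk' M)) := by
        rw [hYmap]
        exact IsPGroup.of_card hcardq
      have hne : M ≠ Y := by
        intro h
        apply hY01
        rw [← hYmap, ← h]
        rw [Subgroup.map_eq_bot_iff, QuotientGroup.ker_mk']
      have hrel : M.relIndex Y = q ^ e := by
        rw [hYdef, relIndex_comap_card, hcardq]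
      by_cases hlin : ∀ χ : IrrCharacter (G ⧸ Y), charDegree (χ : G ⧸ Y → ℂ) ≠ 1 → r ∣ charDegree (χ : G ⧸ Y → ℂ)
      · obtain ⟨Z, hZ, hZr, k, hk⟩ := S4456.result r hp.out hlin
        refine ⟨Z.comap (QuotientGroup.mk' Y), M, ⊥, inferInstance, hM, inferInstance, bot_le,
          hMY.trans (le_comap_mk Y Z), ⟨k, ?_⟩, ?_, ⟨d, ?_⟩, ?_⟩
        · rw [index_comap_mk, hk]
        · have h1 : M.relIndex Y * Y.relIndex (Z.comap (QuotientGroup.mk' Y)) =
              M.relIndex (Z.comap (QuotientGroup.mk' Y)) := Subgroup.relIndex_mul_relIndex _ _ _ hMY (le_comap_mk Y Z)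
          rw [← h1, hrel]
          refine Nat.Coprime.mul_left (Nat.Coprime.pow_left _ ((Nat.coprime_primes hq hr).2 hqr)) ?_
          rw [relIndex_comap_card]
          exact hZr
        · rw [Subgroup.relIndex_bot_left, hcard]
        · rw [Subgroup.card_bot]
          exact Nat.coprime_one_left _
      · exfalso
        push Not at hlin
        obtain ⟨χ, hχ1, hχr⟩ := hlin
        exact key hG M Y hMp hM1 hmin hcomm hMY hne hqr hYq hcore χ χ.2 hχr hχ1

/-- S4833 from the conclusion of S4834. -/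
theorem main {p : ℕ} [hp : Fact p.Prime]
    (hrow : ∀ (S : Type u) [Group S] [Finite S] [IsSimpleGroup S], (∃ a b : S, a * b ≠ b * a) → Row p S)
    {G : Type u} [Group G] [Finite G] (hcd : (cdp p G).ncard ≤ 2) : Group.IsSolvable G ∧ Ser p G := by
  have h1 := solvable_of_ncard hrow (Nat.card G) G le_rfl hcd
  exact ⟨h1, ser_of_ncard (Nat.card G) G le_rfl h1 hcd⟩

end Cfsg.Agent.H669.TwoDeg
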